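import Cfsg.Agent.H530.NA.Odd
import Cfsg.Agent.ClassicalGeometry.OrthSemi
import Cfsg.Agent.LieClassical.OrthForms

/-!
# S2451 (A): the row `POmega` of odd dimension, statement (helper530)
-/

set_option autoImplicit false
set_option linter.unusedSectionVars false

namespace Cfsg.Agent.H530.NA

open Cfsg QuadraticMap Module
open Cfsg.Agent.LieClassical.OrthCore Cfsg.Agent.LieClassical.OrthTrans
open Cfsg.Agent.LieClassical.OrthFinite Cfsg.Agent.LieClassical.OrthForms
open Cfsg.Agent.ClassicalGeometry.OrthSemi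

/-- central elements of `E Q` are scalars -/
theorem scalar_of_center {F V : Type*} [Field F] [AddCommGroup V] [Module F V] {Q : QuadraticForm F V}
    (hG : Good Q) {z : ↥(E Q)} (hz : z ∈ Subgroup.center ↥(E Q)) : ∃ a : F, a ≠ 0 ∧ ∀ v, z.1 v = a • v := by
  have hiso : ∀ v, Q (z.1 v) = Q v := fun v => E_le_O z.2 v
  let M : Gam Q := ⟨z.1.toEquiv, RingEquiv.refl F, 1, one_ne_zero, fun u v => map_add z.1 u v,
    fun a v => map_smul z.1 a v, fun v => by rw [one_mul]; exact hiso v⟩
  have hM : conjE Q M = 1 := by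
    ext k : 2
    show conjLin M k.1 = k.1
    ext v
    obtain ⟨v, rfl⟩ := M.1.surjective v
    rw [conjLin_apply']
    have h1 := (Subgroup.mem_center_iff.1 hz k)
    have h2 := LinearEquiv.congr_fun (congrArg Subtype.val h1) v
    exact h2.symm
  exact exists_scalar_of_conjE hG M hM

section

variable {F : Type} [Field F] [Finite F] {ι : Type} [Fintype ι] [DecidableEq ι] {Q : QuadraticForm F (ι → F)}

/-- the projection `E Q → PΩ` -/
noncomputable def prj (hG : Good Q) : ↥(E Q) →* POmega F ⇑Q :=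
  (QuotientGroup.mk' (Subgroup.center (Cfsg.Omega F ⇑Q))).comp
    ((omegaEquiv Q).trans (MulEquiv.subgroupCongr hG.commutator_eq_E)).symm.toMonoidHom

theorem prj_surjective (hG : Good Q) : Function.Surjective (prj hG) :=
  (QuotientGroup.mk'_surjective _).comp (MulEquiv.surjective _)

theorem ker_prj (hG : Good Q) : (prj hG).ker = Subgroup.center ↥(E Q) := by
  ext x
  set e := (omegaEquiv Q).trans (MulEquiv.subgroupCongr hG.commutator_eq_E) with he
  have h1 : x ∈ (prj hG).ker ↔ e.symm x ∈ Subgroup.center (Cfsg.Omega F ⇑Q) := by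
    rw [MonoidHom.mem_ker]
    show (QuotientGroup.mk' (Subgroup.center (Cfsg.Omega F ⇑Q))) (e.symm x) = 1 ↔ _
    rw [QuotientGroup.mk'_apply, QuotientGroup.eq_one_iff]
  rw [h1, ← map_center_mulEquiv e]
  constructor
  · intro h
    exact ⟨_, h, e.apply_symm_apply x⟩
  · rintro ⟨y, hy, rfl⟩
    show e.symm (e y) ∈ _
    rw [e.symm_apply_apply]
    exact hy

theorem not_dvd_ker {p : ℕ} [Fact p.Prime] [CharP F p] (hG : Good Q) : ¬ p ∣ Nat.card (prj hG).ker := by
  intro hd
  have hfE : Finite ((ι → F) ≃ₗ[F] (ι → F)) :=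
    Finite.of_injective (fun g : (ι → F) ≃ₗ[F] (ι → F) => (g : (ι → F) → (ι → F))) DFunLike.coe_injective
  have : Fintype (prj hG).ker := Fintype.ofFinite _
  obtain ⟨x, hx⟩ := exists_prime_orderOf_dvd_card p (by rwa [Nat.card_eq_fintype_card] at hd)
  have hxc : (x : ↥(E Q)) ∈ Subgroup.center ↥(E Q) := by
    rw [← ker_prj hG]
    exact x.2
  obtain ⟨a, ha, hxa⟩ := scalar_of_center hG hxc
  have hp : p.Prime := Fact.out
  have h1 : x = 1 := by
    have h2 : ∀ m : ℕ, ∀ v, ((((x ^ m : (prj hG).ker) : ↥(E Q)) : (ι → F) ≃ₗ[F] (ι → F)) v) = a ^ m • v := by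
      intro m
      induction m with
      | zero => intro v; rw [pow_zero, pow_zero, one_smul]; rfl
      | succ m ih =>
        intro v
        rw [pow_succ', pow_succ', mul_smul, ← ih v]
        exact hxa _
    obtain ⟨v, hv0, -⟩ := hG.sing
    have h3 := h2 p v
    have h4 : x ^ p = 1 := by rw [← hx, pow_orderOf_eq_one]
    rw [h4] at h3
    have h5 : (1 : F) • v = a ^ p • v := by rw [one_smul]; exact h3
    have h6 : a ^ p = 1 := (smul_left_injective F hv0 h5).symm
    have h7 : a = 1 := by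
      have h8 : (a - 1) ^ p = 0 := by rw [sub_pow_char, h6, one_pow, sub_self]
      exact sub_eq_zero.1 (pow_eq_zero_iff hp.ne_zero |>.1 h8)
    apply Subtype.ext
    apply Subtype.ext
    refine LinearEquiv.ext fun v => ?_
    rw [hxa, h7, one_smul]
    rfl
  rw [h1, orderOf_one] at hx
  exact hp.one_lt.ne hx

end

/-- **NotA for `PΩ_{2m+1}(q)`.** -/
theorem notA_oodd {p : ℕ} [Fact p.Prime] {F : Type} [Field F] [Fintype F] [CharP F p] {m : ℕ} (hm : 3 ≤ m)
    (hF : Odd (Fintype.card F)) : Cfsg.Agent.H27.AH.NotA p (POmega F (quadFormOdd m F)) := by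
  have hp : p.Prime := Fact.out
  have h2 : (2 : F) ≠ 0 := by
    intro h2
    obtain ⟨k, hk⟩ := hF
    have h3 : ((Fintype.card F : ℕ) : F) = 0 := Nat.cast_card_eq_zero F
    rw [hk] at h3
    push_cast at h3
    rw [h2, zero_mul, zero_add] at h3
    exact one_ne_zero h3
  have hp2 : p ≠ 2 := by
    rintro rfl
    apply h2
    exact_mod_cast CharP.cast_eq_zero F 2
  have hQ : Nondeg (oddForm m F) := nondeg_oddForm m F h2
  have hd : finrank F (Unit ⊕ (Fin m ⊕ Fin m) → F) = 2 * m + 1 := by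
    rw [finrank_pi, Fintype.card_sum, Fintype.card_sum, Fintype.card_fin, Fintype.card_unit]
    omega
  have hG : Good (oddForm m F) := good_of_finite hQ (by omega)
  rw [← coe_oddForm]
  have hs : IsSimpleGroup (POmega F ⇑(oddForm m F)) := isSimpleGroup_POmega_of_good hG
  have hfin : Finite (POmega F ⇑(oddForm m F)) := inferInstance
  have hS : FixBN.HasSplit p (POmega F ⇑(oddForm m F)) := by
    refine Cfsg.Agent.H330.Gow.hasSplit_of_ab (Cfsg.Agent.H716.SplitAb.hasSplitAb_of_lie hp ?_)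
    refine Or.inr (Or.inr (Or.inr (Or.inl ⟨F, inferInstance, inferInstance, inferInstance, m, hm, hF, ?_⟩)))
    rw [coe_oddForm]
    exact ⟨MulEquiv.refl _⟩
  exact notA_odd hp2 hQ (by omega) hd hS (prj_surjective hG) (ker_prj hG).le (not_dvd_ker hG)

end Cfsg.Agent.H530.NA
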