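import Cfsg.Agent.H530.NA.Spec

/-!
# S2451 (A): the row `POmega` of minus type, fixed pairs (helper530)

* `spec_or_twoFix` : a `p`-regular non-scalar element of `E Q` is special, or every `p`-group commuting with it fixes
  two independent orthogonal singular vectors.
-/

set_option autoImplicit false
set_option linter.unusedSectionVars false

namespace Cfsg.Agent.H530.NA

open QuadraticMap Module Polynomial
open Cfsg.Agent.LieClassical.OrthCore Cfsg.Agent.LieClassical.OrthTrans

universe u w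

section

variable {F : Type*} [Field F] [Finite F] {V : Type u} [AddCommGroup V] [Module F V] [FiniteDimensional F V]
  {Q : QuadraticForm F V} {X : Type w} [Group X] {p : ℕ} [Fact p.Prime] [CharP F p] {ρ : X →* Module.End F V}

/-- a fixed singular vector in a stable subspace -/
theorem exists_fix_sing_sub (hX : IsPGroup p X) (hQ : ∀ g x, Q (ρ g x) = Q x) {U : Submodule F V}
    (hU : ∀ g, ∀ u ∈ U, ρ g u ∈ U) (h : 3 ≤ finrank F U) :
    ∃ v ∈ U, v ≠ 0 ∧ Q v = 0 ∧ ∀ g, ρ g v = v := by
  obtain ⟨v, h1, h2, h3⟩ := exists_fix_sing (Q := Q.comp U.subtype) (ρ := resRep ρ U hU) hX (fun g x => hQ g x) h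
  exact ⟨v, v.2, fun h => h1 (Subtype.ext h), h2, fun g => congrArg Subtype.val (h3 g)⟩

/-- a fixed vector in a stable subspace -/
theorem exists_fix_sub (hX : IsPGroup p X) {U : Submodule F V}
    (hU : ∀ g, ∀ u ∈ U, ρ g u ∈ U) (h : U ≠ ⊥) : ∃ v ∈ U, v ≠ 0 ∧ ∀ g, ρ g v = v := by
  have : Finite V := Module.finite_of_finite F
  have : Nontrivial U := Submodule.nontrivial_iff_ne_bot.2 h
  obtain ⟨v, hv, hv0⟩ := Cfsg.Agent.H152.AbDesc.exists_fix hX (resRep ρ U hU)
  exact ⟨v, v.2, fun h => hv0 (Subtype.ext h), fun g => congrArg Subtype.val (hv g)⟩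

/-- a singular vector in a subspace of dimension at least three -/
theorem exists_sing_sub (p : ℕ) [Fact p.Prime] [CharP F p] {U : Submodule F V} (h : 3 ≤ finrank F U) : ∃ v ∈ U, v ≠ 0 ∧ Q v = 0 := by
  obtain ⟨v, h1, h2, h3, -⟩ := exists_fix_sing_sub (p := p) (X := Unit) (Q := Q) (ρ := 1) (fun g => ⟨0, rfl⟩)
    (fun g x => rfl) (U := U) (fun g u hu => hu) h
  exact ⟨v, h1, h2, h3⟩

/-- a totally singular pair in a subspace of dimension at least five -/
theorem exists_ts_pair (p : ℕ) [Fact p.Prime] [CharP F p] {U : Submodule F V} (h : 5 ≤ finrank F U) :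
    ∃ v ∈ U, ∃ w ∈ U, LinearIndependent F ![v, w] ∧ Q v = 0 ∧ Q w = 0 ∧ polar Q v w = 0 := by
  obtain ⟨v, hv, hv0, hQv⟩ := exists_sing_sub p (Q := Q) (U := U) (by omega)
  obtain ⟨C, hC⟩ := Submodule.exists_isCompl (Submodule.span F {v})
  set K := LinearMap.ker (polarBilin Q v) with hK
  have h1 : finrank F V ≤ finrank F K + 1 := by
    have h0 : finrank F (LinearMap.range (polarBilin Q v)) + finrank F K = finrank F V :=
      LinearMap.finrank_range_add_finrank_ker (polarBilin Q v)
    have h2 : finrank F (LinearMap.range (polarBilin Q v)) ≤ 1 :=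
      (Submodule.finrank_le _).trans (by rw [finrank_self])
    omega
  have h2 := Submodule.finrank_add_eq_of_isCompl hC
  rw [finrank_span_singleton hv0] at h2
  have h3 := Submodule.finrank_sup_add_finrank_inf_eq U K
  have h4 := Submodule.finrank_sup_add_finrank_inf_eq (U ⊓ K) C
  have h5 := Submodule.finrank_le (U ⊔ K)
  have h6 := Submodule.finrank_le (U ⊓ K ⊔ C)
  obtain ⟨w, hw, hw0, hQw⟩ := exists_sing_sub p (Q := Q) (U := U ⊓ K ⊓ C) (by omega)
  refine ⟨v, hv, w, hw.1.1, ?_, hQv, hQw, LinearMap.mem_ker.1 hw.1.2⟩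
  rw [LinearIndependent.pair_iff' hv0]
  rintro c rfl
  have h7 : c • v ∈ Submodule.span F {v} ⊓ C :=
    ⟨Submodule.smul_mem _ _ (Submodule.mem_span_singleton_self v), hw.2⟩
  rw [hC.inf_eq_bot] at h7
  exact hw0 ((Submodule.mem_bot F).1 h7)

/-- the fixed subspace -/
def fxs (ρ : X →* Module.End F V) : Submodule F V where
  carrier := {v | ∀ g, ρ g v = v}
  zero_mem' := fun g => map_zero _
  add_mem' := fun {a b} ha hb g => by rw [map_add, ha g, hb g]
  smul_mem' := fun c a ha g => by rw [map_smul, ha g]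

theorem mem_fxs {v : V} : v ∈ fxs ρ ↔ ∀ g, ρ g v = v := Iff.rfl

/-- eigenvectors for `l` with `l ^ 2 ≠ 1` are singular -/
theorem sing_of_eig {a : V ≃ₗ[F] V} (ha : a ∈ O Q) {l : F} (hl : l * l ≠ 1) {v : V} (hv : a v = l • v) : Q v = 0 := by
  have h1 : Q (a v) = Q v := ha v
  rw [hv, QuadraticMap.map_smul, smul_eq_mul] at h1
  have h2 : (l * l - 1) * Q v = 0 := by linear_combination h1
  exact (mul_eq_zero.1 h2).resolve_left (sub_ne_zero.2 hl)

/-- the inverse eigenvalue -/
theorem exists_inv_eig (hQn : Nondeg Q) {a : V ≃ₗ[F] V} (ha : a ∈ O Q) {l : F} {r : V} (hr0 : r ≠ 0)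
    (hr : a r = l • r) : ∃ k : V, k ≠ 0 ∧ a k = l⁻¹ • k := by
  by_contra hcon
  push Not at hcon
  have hl : l ≠ 0 := by
    rintro rfl
    rw [zero_smul] at hr
    exact hr0 (a.map_eq_zero_iff.1 hr)
  set f : V →ₗ[F] V := a.toLinearMap - l⁻¹ • LinearMap.id with hf
  have hinj : Function.Injective f := by
    rw [← LinearMap.ker_eq_bot, LinearMap.ker_eq_bot']
    intro k hk
    by_contra hk0
    exact hcon k hk0 (sub_eq_zero.1 hk)
  have hsurj := LinearMap.surjective_of_injective hinj
  apply hr0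
  apply hQn
  intro v
  obtain ⟨u, rfl⟩ := hsurj v
  have h1 : f u = a u - l⁻¹ • u := rfl
  have h2 : polar Q (a r) (a u) = polar Q r u := polar_map ha r u
  rw [hr, polar_smul_left, smul_eq_mul] at h2
  rw [h1, polar_sub_right, polar_smul_right, ← h2, smul_eq_mul, inv_mul_cancel_left₀ hl, sub_self]

/-- the image of `a - l` has even dimension -/
theorem even_im (hQn : Nondeg Q) (hev : Even (finrank F V)) {a : V ≃ₗ[F] V} (ha : a ∈ E Q) {l : F} (hl : l * l = 1) :
    Even (finrank F (im a l)) := by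
  have h0 := LinearMap.finrank_range_add_finrank_ker (a.toLinearMap - l • (LinearMap.id : V →ₗ[F] V))
  have h1 : Even (finrank F (LinearMap.ker (a.toLinearMap - l • (LinearMap.id : V →ₗ[F] V)))) := by
    by_cases hl1 : l = 1
    · have h2 := Cfsg.Agent.H890.SpParity.even_E hQn ha
      have h3 : Cfsg.Agent.H890.SpParity.fix a = LinearMap.ker (a.toLinearMap - l • (LinearMap.id : V →ₗ[F] V)) := by
        rw [hl1, one_smul]
        rfl
      rw [h3] at h2
      rw [Nat.even_iff] at h2 hev ⊢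
      omega
    · have hlm : l = -1 := by
        have : (l - 1) * (l + 1) = 0 := by linear_combination hl
        exact eq_neg_of_add_eq_zero_left ((mul_eq_zero.1 this).resolve_left (sub_ne_zero.2 hl1))
      have hn1 : (LinearEquiv.neg F : V ≃ₗ[F] V) ∈ O Q := fun v => QuadraticMap.map_neg Q v
      have h2 := Cfsg.Agent.H890.SpParity.parity_E hQn ha hn1
      have h3 : Cfsg.Agent.H890.SpParity.fix (a * (LinearEquiv.neg F : V ≃ₗ[F] V)) =
          LinearMap.ker (a.toLinearMap - l • (LinearMap.id : V →ₗ[F] V)) := by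
        ext v
        rw [Cfsg.Agent.H890.SpParity.mem_fix, LinearMap.mem_ker]
        show a (-v) = v ↔ a v - l • v = 0
        rw [map_neg, hlm, neg_smul, one_smul, sub_neg_eq_add, neg_eq_iff_add_eq_zero]
      have h4 : Cfsg.Agent.H890.SpParity.fix (LinearEquiv.neg F : V ≃ₗ[F] V) = ⊥ := by
        rw [eq_bot_iff]
        intro v hv
        rw [Cfsg.Agent.H890.SpParity.mem_fix] at hv
        have h5 : -v = v := hv
        have h6 : (2 : F) • v = 0 := by
          rw [two_smul]
          exact neg_eq_iff_add_eq_zero.1 h5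
        refine (Submodule.mem_bot F).2 ((smul_eq_zero.1 h6).resolve_left ?_)
        intro h7
        apply hl1
        rw [hlm]
        linear_combination -h7
      rw [h3, h4, finrank_bot, add_zero] at h2
      exact h2
  rw [Nat.even_iff] at h1 hev ⊢
  unfold im
  omega

theorem ker_im {a : V ≃ₗ[F] V} (hss : Module.End.IsSemisimple (a.toLinearMap : Module.End F V)) {l : F} {v : V}
    (hv1 : v ∈ im a l) (hv2 : a v = l • v) : v = 0 := by
  have hgp : ∀ v, aeval (a.toLinearMap : Module.End F V) (Polynomial.X - C l) v = a v - l • v := by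
    intro v
    rw [map_sub, aeval_X, aeval_C]
    rfl
  obtain ⟨u, hu⟩ := mem_im.1 hv1
  exact eq_zero_of_semi hss (Polynomial.X - C l) (u := u) (by rw [hgp, hu]) (by rw [hgp, hv2, sub_self])

/-- the image of `a - l` is stable -/
theorem im_stable {a : V ≃ₗ[F] V} (hcomm : ∀ g v, ρ g (a v) = a (ρ g v)) {l : F} (g : X) (u : V) (hu : u ∈ im a l) :
    ρ g u ∈ im a l := by
  obtain ⟨w, rfl⟩ := mem_im.1 hu
  refine mem_im.2 ⟨ρ g w, ?_⟩
  rw [map_sub, map_smul, hcomm]

/-- `V = ker (a - l) ⊕ im (a - l)` -/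
theorem ker_im_top {a : V ≃ₗ[F] V} (hss : Module.End.IsSemisimple (a.toLinearMap : Module.End F V)) (l : F) :
    LinearMap.ker (a.toLinearMap - l • (LinearMap.id : V →ₗ[F] V)) ⊓ im a l = ⊥ ∧
      LinearMap.ker (a.toLinearMap - l • (LinearMap.id : V →ₗ[F] V)) ⊔ im a l = ⊤ := by
  have hgp : aeval (a.toLinearMap : Module.End F V) (Polynomial.X - C l) =
      a.toLinearMap - l • (LinearMap.id : V →ₗ[F] V) := by
    rw [map_sub, aeval_X, aeval_C]
    rfl
  have h := ker_sup_range hss (Polynomial.X - C l)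
  rw [hgp] at h
  exact h

theorem mem_ker_sub {a : V ≃ₗ[F] V} {l : F} {v : V} :
    v ∈ LinearMap.ker (a.toLinearMap - l • (LinearMap.id : V →ₗ[F] V)) ↔ a v = l • v := by
  rw [LinearMap.mem_ker]
  exact sub_eq_zero

/-- a special plane is fixed pointwise -/
theorem fix_plane (hX : IsPGroup p X) (hQ : ∀ g x, Q (ρ g x) = Q x) (hQn : Nondeg Q) {a : V ≃ₗ[F] V} (haO : a ∈ O Q)
    (hss : Module.End.IsSemisimple (a.toLinearMap : Module.End F V)) (hcomm : ∀ g v, ρ g (a v) = a (ρ g v)) {l : F}
    (hl1 : l * l = 1) (hD2' : finrank F (im a l) = 2) (hani : ∀ s ∈ im a l, (∀ g, ρ g s = s) → Q s = 0 → s = 0) :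
    ∀ s ∈ im a l, ∀ g, ρ g s = s := by
  have hDst : ∀ g, ∀ u ∈ im a l, ρ g u ∈ im a l := im_stable hcomm
  have hD0 : im a l ≠ ⊥ := by
    intro h
    rw [h, finrank_bot] at hD2'
    omega
  by_cases hp2 : p = 2
  · -- characteristic two
    obtain ⟨v, hv, hv0, hvf⟩ := exists_fix_sub hX hDst hD0
    have hav : a v ∈ im a l := by
      obtain ⟨w, rfl⟩ := mem_im.1 hv
      exact mem_im.2 ⟨a w, by rw [map_sub, map_smul]⟩
    have hli : LinearIndependent F ![v, a v] := by
      rw [LinearIndependent.pair_iff' hv0]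
      intro μ hμ
      have h1 : μ * μ = 1 := by
        by_contra h1
        exact hv0 (hani v hv hvf (sing_of_eig haO h1 hμ.symm))
      have h2F : (2 : F) = 0 := by
        have := CharP.cast_eq_zero F p
        rw [hp2] at this
        exact_mod_cast this
      have h2 : ∀ x : F, x * x = 1 → x = 1 := by
        intro x hx
        have h3 : (x - 1) * (x - 1) = 0 := by linear_combination hx + (1 - x) * h2F
        exact sub_eq_zero.1 (mul_self_eq_zero.1 h3)
      apply hv0
      refine ker_im hss hv ?_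
      rw [h2 l hl1, ← hμ, h2 μ h1]
    have h3 : ∀ s ∈ im a l, s ∈ Submodule.span F {v, a v} := by
      have h4 : Submodule.span F (Set.range ![v, a v]) ≤ im a l := by
        rw [Submodule.span_le, Matrix.range_cons, Matrix.range_cons, Matrix.range_empty, Set.union_empty,
          Set.singleton_union]
        rintro x (rfl | rfl)
        · exact hv
        · exact hav
      have h5 : Submodule.span F (Set.range ![v, a v]) = im a l := by
        apply Submodule.eq_of_le_of_finrank_eq h4
        rw [finrank_span_eq_card hli, hD2', Fintype.card_fin]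
      intro s hs
      rw [← h5, Matrix.range_cons, Matrix.range_cons, Matrix.range_empty, Set.union_empty,
          Set.singleton_union] at hs
      exact hs
    intro s hs g
    obtain ⟨c, d, rfl⟩ := Submodule.mem_span_pair.1 (h3 s hs)
    rw [map_add, map_smul, map_smul, hcomm, hvf]
  · intro s hs g
    obtain ⟨h1, h2⟩ := ker_im_top hss l
    have h3 := triv_of_le_two (Q := Q.comp (im a l).subtype) (ρ := resRep ρ (im a l) hDst) hX
      (nondeg_sub hQn (by rw [sup_comm]; exact h2) (fun u hu w hw => by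
        obtain ⟨u', rfl⟩ := mem_im.1 hu
        rw [polar_comm]
        exact polar_range haO hl1 (mem_ker_sub.1 hw))) (fun g x => hQ g x) hD2'.le (Or.inl hp2) g
    have h4 := LinearMap.congr_fun h3 ⟨s, hs⟩
    exact congrArg Subtype.val h4

/-- semisimplicity of `p`-regular elements -/
theorem semi_of_regular {a : ↥(E Q)} (ha : ¬ p ∣ orderOf a) :
    Module.End.IsSemisimple ((a : V ≃ₗ[F] V).toLinearMap : Module.End F V) := by
  set f : Module.End F V := (a : V ≃ₗ[F] V).toLinearMap with hf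
  have hfn : f ^ orderOf a = 1 := by
    have h1 : ∀ m : ℕ, ∀ v, (f ^ m) v = ((a ^ m : ↥(E Q)) : V ≃ₗ[F] V) v := by
      intro m
      induction m with
      | zero => intro v; rfl
      | succ m ih =>
        intro v
        rw [pow_succ', pow_succ']
        show f ((f ^ m) v) = (a : V ≃ₗ[F] V) (((a ^ m : ↥(E Q)) : V ≃ₗ[F] V) v)
        rw [ih]
        rfl
    ext v
    rw [h1, pow_orderOf_eq_one]
    rfl
  exact isSemisimple (F := F) (by rwa [Ne, CharP.cast_eq_zero_iff F p]) hfn

/-- **hfix.** -/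
theorem spec_or_twoFix (hX : IsPGroup p X) (hQ : ∀ g x, Q (ρ g x) = Q x) (hQn : Nondeg Q) (hd : 7 ≤ finrank F V)
    (hev : Even (finrank F V)) {a : V ≃ₗ[F] V} (ha : a ∈ E Q) (hss : Module.End.IsSemisimple (a.toLinearMap : Module.End F V))
    (hcomm : ∀ g v, ρ g (a v) = a (ρ g v)) (hns : ∀ l : F, l * l = 1 → ∃ v, a v ≠ l • v) :
    Spec Q a ∨ TwoFix Q ρ := by
  have haO := E_le_O ha
  by_contra hcon
  push Not at hcon
  obtain ⟨hnS, hnT⟩ := hcon
  have key : ∀ v w, Q v = 0 → Q w = 0 → polar Q v w = 0 → (∀ g, ρ g v = v) → (∀ g, ρ g w = w) →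
      ¬ LinearIndependent F ![v, w] := fun v w h1 h2 h3 h4 h5 h6 => hnT ⟨v, w, h6, h1, h2, h3, fun g => ⟨h4 g, h5 g⟩⟩
  set W := fxs ρ with hW
  have hW4 : finrank F W ≤ 4 := by
    by_contra hcon
    obtain ⟨v, hv, w, hw, h1, h2, h3, h4⟩ := exists_ts_pair p (Q := Q) (U := W) (by omega)
    exact key v w h2 h3 h4 hv hw h1
  have hpol : ∀ g v w, polar Q (ρ g v) (ρ g w) = polar Q v w := fun g v w => by
    simp only [polar, ← map_add, hQ]
  have hWp : ∀ g, ∀ u ∈ Cfsg.Agent.H955.perp Q W, ρ g u ∈ Cfsg.Agent.H955.perp Q W := fun g u hu w hw => by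
    have h1 := hpol g w u
    rw [hw g] at h1
    rw [h1]
    exact hu w hw
  obtain ⟨r, hr, hr0, hQr, hrf⟩ := exists_fix_sing_sub hX hQ hWp (by
    have := Cfsg.Agent.H955.finrank_add_perp hQn W
    omega)
  have haW : ∀ w ∈ W, a w ∈ W := fun w hw g => by rw [hcomm, hw g]
  have h1 := key r (a r) hQr (by rw [haO r, hQr]) (by rw [polar_comm]; exact hr _ (haW r hrf)) hrf (haW r hrf)
  rw [LinearIndependent.pair_iff' hr0] at h1
  push Not at h1
  obtain ⟨l, hl⟩ := h1
  by_cases hl1 : l * l = 1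
  · -- the eigenvalue `± 1`
    have hker : ∀ v, v ∈ im a l → a v = l • v → v = 0 := fun v hv1 hv2 => ker_im hss hv1 hv2
    have hDst : ∀ g, ∀ u ∈ im a l, ρ g u ∈ im a l := im_stable hcomm
    have hani : ∀ s ∈ im a l, (∀ g, ρ g s = s) → Q s = 0 → s = 0 := by
      intro s hs hsf hQs
      by_contra hs0
      refine key r s hQr hQs ?_ hrf hsf ?_
      · obtain ⟨w, rfl⟩ := mem_im.1 hs
        exact polar_range haO hl1 hl.symm
      · rw [LinearIndependent.pair_iff' hr0]
        rintro c rfl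
        refine hs0 (hker _ hs ?_)
        rw [map_smul, ← hl, smul_comm]
    have hD2 : finrank F (im a l) ≤ 2 := by
      by_contra hcon
      obtain ⟨s, h1, h2, h3, h4⟩ := exists_fix_sing_sub hX hQ hDst (by omega)
      exact h2 (hani s h1 h4 h3)
    have hD0 : im a l ≠ ⊥ := by
      intro h0
      obtain ⟨v, hv⟩ := hns l hl1
      have h1 : a v - l • v ∈ im a l := mem_im.2 ⟨v, rfl⟩
      rw [h0, Submodule.mem_bot, sub_eq_zero] at h1
      exact hv h1
    have hD2' : finrank F (im a l) = 2 := by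
      have h1 := even_im hQn hev ha hl1
      have h2 : finrank F (im a l) ≠ 0 := fun h => hD0 (Submodule.finrank_eq_zero.1 h)
      rw [Nat.even_iff] at h1
      omega
    have hfx : ∀ s ∈ im a l, ∀ g, ρ g s = s := fix_plane hX hQ hQn haO hss hcomm hl1 hD2' hani
    exact hnS ⟨l, hl1, hD2', fun s hs hQs => hani s hs (hfx s hs) hQs⟩
  · obtain ⟨k, hk0, hk⟩ := exists_inv_eig hQn haO hr0 hl.symm
    set K : Submodule F V := LinearMap.ker (a.toLinearMap - l⁻¹ • (LinearMap.id : V →ₗ[F] V)) with hK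
    have hmK : ∀ v, v ∈ K ↔ a v = l⁻¹ • v := fun v => by
      rw [hK, LinearMap.mem_ker]
      exact sub_eq_zero
    obtain ⟨r', hr', hr'0, hr'f⟩ := exists_fix_sub hX (U := K) (ρ := ρ) (fun g u hu => by
      rw [hmK] at hu ⊢
      rw [← hcomm, hu, map_smul]) (fun h => hk0 (by
        have := (hmK k).2 hk
        rw [h] at this
        exact (Submodule.mem_bot F).1 this))
    have hl0 : l ≠ 0 := by
      rintro rfl
      rw [zero_smul] at hl
      exact hr0 (a.map_eq_zero_iff.1 hl.symm)
    rw [hmK] at hr'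
    refine key r r' hQr (sing_of_eig haO ?_ hr') (by rw [polar_comm]; exact hr _ hr'f) hrf hr'f ?_
    · intro h
      apply hl1
      have h2 : l * l * (l⁻¹ * l⁻¹) = 1 := by
        field_simp
      rw [h, mul_one] at h2
      exact h2
    · rw [LinearIndependent.pair_iff' hr0]
      rintro c rfl
      apply hl1
      rw [map_smul, ← hl, smul_comm c l r] at hr'
      have h3 : l = l⁻¹ := smul_left_injective F hr'0 hr'
      rw [h3]
      nth_rewrite 1 [← h3]
      exact mul_inv_cancel₀ hl0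

end

end Cfsg.Agent.H530.NA
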