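import Cfsg.Agent.H530.NA.MinFix

/-!
# S2451 (A): the row `POmega` of minus type, special elements (helper530)

`hspec` : no special element occurs (the vector trick of helper330 and helper510).
-/

set_option autoImplicit false
set_option linter.unusedSectionVars false

namespace Cfsg.Agent.H530.NA

open QuadraticMap Module Polynomial
open Cfsg.Agent.LieClassical.OrthCore Cfsg.Agent.LieClassical.OrthTrans
open Cfsg.Agent.H955 (perp res perp_perp finrank_add_perp mem_perp)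

universe u w

section

variable {F : Type*} [Field F] [Finite F] {V : Type u} [AddCommGroup V] [Module F V] [FiniteDimensional F V]
  {Q : QuadraticForm F V}

/-- the orthogonal space of `M + D` -/
theorem perp_sup (hQn : Nondeg Q) {n : ℕ} (hV : finrank F V = 2 * (n + 1)) {D M : Submodule F V}
    (hD : finrank F D = 2) (hani : ∀ d ∈ D, Q d = 0 → d = 0) (hMD : M ≤ perp Q D) (hMt : ∀ m ∈ M, Q m = 0)
    (hM : finrank F M = n) : perp Q (M ⊔ D) = M := by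
  have h1 : M ⊓ D = ⊥ := by
    rw [eq_bot_iff]
    rintro x ⟨hx1, hx2⟩
    exact (Submodule.mem_bot F).2 (hani x hx2 (hMt x hx1))
  have h2 := Submodule.finrank_sup_add_finrank_inf_eq M D
  have h3 := finrank_add_perp hQn (M ⊔ D)
  rw [h1, finrank_bot] at h2
  symm
  apply Submodule.eq_of_le_of_finrank_eq
  · intro x hx y hy
    obtain ⟨m, hm, d, hd, rfl⟩ := Submodule.mem_sup.1 hy
    rw [polar_add_left, polar_of_ts hMt hm hx, hMD hx d hd, add_zero]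
  · omega

/-- extension of a totally singular subspace of `D^⊥` by one dimension -/
theorem exists_ext_ts (hQn : Nondeg Q) {n : ℕ} (hV : finrank F V = 2 * (n + 1)) {D S : Submodule F V}
    (hD : finrank F D = 2) (hani : ∀ d ∈ D, Q d = 0 → d = 0) (hmin : ¬ Cfsg.Agent.H955.IsPlus Q)
    (hSD : S ≤ perp Q D) (hSt : ∀ s ∈ S, Q s = 0) (hS : finrank F S + 1 = n) :
    ∃ M : Submodule F V, S ≤ M ∧ M ≤ perp Q D ∧ (∀ m ∈ M, Q m = 0) ∧ finrank F M = n := by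
  have hani' : ∀ v : D, res Q D v = 0 → v = 0 := fun v hv => Subtype.ext (hani v v.2 hv)
  have hND : Nondeg (res Q D) := Cfsg.Agent.H955.nondeg_of_aniso hD hani'
  have h1 := Cfsg.Agent.H955.isPlus_iff_perp hQn hND (by
    rw [hV]
    exact even_two_mul _) (by
    rw [hD]
    exact even_two)
  have h2 : ¬ Cfsg.Agent.H955.IsPlus (res Q D) := Cfsg.Agent.H955.not_isPlus_of_aniso hani' (by omega)
  obtain ⟨U, hU1, hU2⟩ : Cfsg.Agent.H955.IsPlus (res Q (perp Q D)) := by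
    by_contra h3
    exact hmin (h1.2 (iff_of_false h2 h3))
  have h3 := finrank_add_perp hQn D
  set M₀ := U.map (perp Q D).subtype with hM₀
  have hM1 : finrank F M₀ = n := by
    rw [hM₀, (Submodule.equivMapOfInjective _ (Submodule.subtype_injective _) U).finrank_eq.symm]
    omega
  have hM2 : ∀ m ∈ M₀, Q m = 0 := by
    rintro _ ⟨m, hm, rfl⟩
    exact hU1 m hm
  have hM3 : M₀ ≤ perp Q D := Submodule.map_subtype_le _ _
  obtain ⟨v, ⟨hv1, hv2⟩, hv3⟩ : ∃ v ∈ M₀ ⊓ perp Q S, v ∉ S := by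
    by_contra hcon
    push Not at hcon
    have h4 : M₀ ⊓ perp Q S ≤ M₀ ⊓ S := fun v hv => ⟨hv.1, hcon v hv⟩
    have h5 := Submodule.finrank_mono h4
    have h6 := Submodule.finrank_sup_add_finrank_inf_eq M₀ (perp Q S)
    have h7 : M₀ ⊔ perp Q S ≤ perp Q (M₀ ⊓ S) := by
      apply sup_le
      · intro x hx y hy
        exact polar_of_ts hM2 hy.1 hx
      · exact Cfsg.Agent.H955.perp_anti inf_le_right
    have h8 := Submodule.finrank_mono h7
    have h9 := finrank_add_perp hQn (M₀ ⊓ S)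
    have h10 := finrank_add_perp hQn S
    omega
  have hv0 : v ≠ 0 := by
    rintro rfl
    exact hv3 S.zero_mem
  refine ⟨S ⊔ Submodule.span F {v}, le_sup_left, sup_le hSD ?_, ?_, ?_⟩
  · rw [Submodule.span_singleton_le_iff_mem]
    exact hM3 hv1
  · intro x hx
    obtain ⟨s, hs, y, hy, rfl⟩ := Submodule.mem_sup.1 hx
    obtain ⟨c, rfl⟩ := Submodule.mem_span_singleton.1 hy
    rw [Q_add, hSt s hs, QuadraticMap.map_smul, hM2 v hv1, polar_smul_right, hv2 s hs]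
    simp
  · have h4 : S ⊓ Submodule.span F {v} = ⊥ := by
      rw [eq_bot_iff]
      rintro x ⟨hx1, hx2⟩
      obtain ⟨c, rfl⟩ := Submodule.mem_span_singleton.1 hx2
      by_cases hc : c = 0
      · rw [hc, zero_smul]
        exact Submodule.zero_mem _
      · exfalso
        apply hv3
        have := S.smul_mem c⁻¹ hx1
        rwa [smul_smul, inv_mul_cancel₀ hc, one_smul] at this
    have h5 := Submodule.finrank_sup_add_finrank_inf_eq S (Submodule.span F {v})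
    rw [h4, finrank_bot, finrank_span_singleton hv0] at h5
    omega

/-- the unipotent radical of the stabiliser of `M` -/
def RM (Q : QuadraticForm F V) (M : Submodule F V) : Subgroup ↥(E Q) where
  carrier := {u | (∀ m ∈ M, (u : V ≃ₗ[F] V) m = m) ∧ ∀ v ∈ perp Q M, (u : V ≃ₗ[F] V) v - v ∈ M}
  one_mem' := ⟨fun m _ => rfl, fun v _ => by
    show v - v ∈ M
    rw [sub_self]
    exact M.zero_mem⟩
  mul_mem' := by
    rintro u w ⟨hu1, hu2⟩ ⟨hw1, hw2⟩
    refine ⟨fun m hm => ?_, fun v hv => ?_⟩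
    · show (u : V ≃ₗ[F] V) ((w : V ≃ₗ[F] V) m) = m
      rw [hw1 m hm, hu1 m hm]
    · show (u : V ≃ₗ[F] V) ((w : V ≃ₗ[F] V) v) - v ∈ M
      have e : (u : V ≃ₗ[F] V) ((w : V ≃ₗ[F] V) v) - v =
          (u : V ≃ₗ[F] V) ((w : V ≃ₗ[F] V) v - v) + ((u : V ≃ₗ[F] V) v - v) := by
        rw [map_sub]
        abel
      rw [e, hu1 _ (hw2 v hv)]
      exact M.add_mem (hw2 v hv) (hu2 v hv)
  inv_mem' := by
    rintro u ⟨hu1, hu2⟩
    have h1 : ∀ m ∈ M, ((u⁻¹ : ↥(E Q)) : V ≃ₗ[F] V) m = m := fun m hm =>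
      (LinearEquiv.symm_apply_eq (u : V ≃ₗ[F] V)).2 (hu1 m hm).symm
    refine ⟨h1, fun v hv => ?_⟩
    have h2 := h1 _ (hu2 v hv)
    have h3 : ((u⁻¹ : ↥(E Q)) : V ≃ₗ[F] V) ((u : V ≃ₗ[F] V) v) = v := LinearEquiv.symm_apply_apply (u : V ≃ₗ[F] V) v
    rw [map_sub, h3] at h2
    have h4 := M.neg_mem (hu2 v hv)
    rw [← h2, neg_sub] at h4
    exact h4

theorem mem_RM {M : Submodule F V} {u : ↥(E Q)} : u ∈ RM Q M ↔ (∀ m ∈ M, (u : V ≃ₗ[F] V) m = m) ∧
    ∀ v ∈ perp Q M, (u : V ≃ₗ[F] V) v - v ∈ M := Iff.rfl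

/-- `RM Q M` is a `p`-group -/
theorem isPGroup_RM {p : ℕ} [Fact p.Prime] [CharP F p] [Nontrivial V] (M : Submodule F V) :
    IsPGroup p (RM Q M) := by
  have hp : p.Prime := Fact.out
  rintro ⟨u, hu⟩
  refine ⟨2, ?_⟩
  apply Subtype.ext
  apply Subtype.ext
  refine LinearEquiv.ext fun v => ?_
  have hE : CharP (Module.End F V) p := charP_of_injective_algebraMap (algebraMap F (Module.End F V)).injective p
  set f : Module.End F V := (u : V ≃ₗ[F] V).toLinearMap with hf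
  have h1 : ∀ m : ℕ, ∀ v, (f ^ m) v = ((u ^ m : ↥(E Q)) : V ≃ₗ[F] V) v := by
    intro m
    induction m with
    | zero => intro v; rfl
    | succ m ih =>
      intro v
      rw [pow_succ', pow_succ']
      show f ((f ^ m) v) = (u : V ≃ₗ[F] V) (((u ^ m : ↥(E Q)) : V ≃ₗ[F] V) v)
      rw [ih]
      rfl
  have h2 : (f - 1) ^ 3 = 0 := by
    ext v
    show f (f (f v - v) - (f v - v)) - (f (f v - v) - (f v - v)) = 0
    have h3 : f v - v ∈ perp Q M := by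
      intro m hm
      have h4 := polar_map (E_le_O u.2) m v
      rw [hu.1 m hm] at h4
      rw [polar_sub_right]
      exact sub_eq_zero.2 h4
    exact sub_eq_zero.2 (hu.1 _ (hu.2 _ h3))
  have h3 : (f - 1) ^ p ^ 2 = 0 := by
    have h4 : 3 ≤ p ^ 2 := by
      have := hp.two_le
      nlinarith
    rw [← Nat.sub_add_cancel h4, pow_add, h2, mul_zero]
  rw [sub_pow_char_pow_of_commute _ _ (Commute.one_right _), one_pow, sub_eq_zero] at h3
  have h4 := h1 (p ^ 2) v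
  rw [h3] at h4
  exact h4.symm

/-- conjugation -/
theorem conj_RM {M : Submodule F V} {y u : ↥(E Q)} (hu : u ∈ RM Q M) (hy : ∀ m ∈ M, (y : V ≃ₗ[F] V) m ∈ M)
    (hy' : ∀ m ∈ M, ((y⁻¹ : ↥(E Q)) : V ≃ₗ[F] V) m ∈ M) : y * u * y⁻¹ ∈ RM Q M := by
  have hyy : ∀ v, (y : V ≃ₗ[F] V) (((y⁻¹ : ↥(E Q)) : V ≃ₗ[F] V) v) = v := fun v =>
    LinearEquiv.apply_symm_apply (y : V ≃ₗ[F] V) v
  refine ⟨fun m hm => ?_, fun v hv => ?_⟩
  · show (y : V ≃ₗ[F] V) ((u : V ≃ₗ[F] V) (((y⁻¹ : ↥(E Q)) : V ≃ₗ[F] V) m)) = m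
    rw [hu.1 _ (hy' m hm), hyy]
  · show (y : V ≃ₗ[F] V) ((u : V ≃ₗ[F] V) (((y⁻¹ : ↥(E Q)) : V ≃ₗ[F] V) v)) - v ∈ M
    have h1 : ((y⁻¹ : ↥(E Q)) : V ≃ₗ[F] V) v ∈ perp Q M := by
      intro m hm
      have h2 := polar_map (E_le_O y.2) m (((y⁻¹ : ↥(E Q)) : V ≃ₗ[F] V) v)
      rw [hyy] at h2
      rw [← h2]
      exact hv _ (hy m hm)
    have h3 := hy _ (hu.2 _ h1)
    rw [map_sub, hyy] at h3
    exact h3

theorem le_normalizer_RM {M : Submodule F V} {B : Subgroup ↥(E Q)}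
    (hB : ∀ y ∈ B, ∀ m ∈ M, (y : V ≃ₗ[F] V) m ∈ M) : B ≤ Subgroup.normalizer (RM Q M : Set ↥(E Q)) := by
  intro y hy
  rw [Subgroup.mem_normalizer_iff]
  intro u
  constructor
  · intro hu
    exact conj_RM hu (hB y hy) (hB _ (B.inv_mem hy))
  · intro hu
    have h1 := conj_RM (y := y⁻¹) hu (hB _ (B.inv_mem hy)) (by
      rw [inv_inv]
      exact hB y hy)
    have e : y⁻¹ * (y * u * y⁻¹) * y⁻¹⁻¹ = u := by group
    rwa [e] at h1

/-- Siegel transformations in `RM Q M` -/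
theorem siegel_mem_RM {M : Submodule F V} (hMt : ∀ m ∈ M, Q m = 0) {m w : V} (hm : m ∈ M) (hw : w ∈ perp Q M) :
    ∃ u ∈ RM Q M, ∀ v ∈ perp Q M, (u : V ≃ₗ[F] V) v = v - polar Q w v • m := by
  have hu : ∀ v ∈ perp Q M, siegel Q m w (hMt m hm) (hw m hm) v = v - polar Q w v • m := by
    intro v hv
    rw [siegel_apply, hv m hm]
    simp
  refine ⟨⟨siegel Q m w (hMt m hm) (hw m hm), siegel_mem_E _ _⟩, ⟨fun m' hm' => ?_, fun v hv => ?_⟩, hu⟩
  · have h1 : m' ∈ perp Q M := fun x hx => polar_of_ts hMt hx hm'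
    have h2 := hu m' h1
    rw [polar_comm Q w m', hw m' hm', zero_smul, sub_zero] at h2
    exact h2
  · have h2 := hu v hv
    show siegel Q m w (hMt m hm) (hw m hm) v - v ∈ M
    rw [h2, sub_sub_cancel_left]
    exact M.neg_mem (M.smul_mem _ hm)

/-- dual vectors -/
theorem exists_dual {D : Submodule F V} (hD : finrank F D = 2)
    (hND : ∀ x ∈ D, (∀ y ∈ D, polar Q x y = 0) → x = 0) {d₁ d₂ : V}
    (hsp : ∀ d ∈ D, ∃ c₁ c₂ : F, d = c₁ • d₁ + c₂ • d₂) :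
    ∃ w₁ ∈ D, ∃ w₂ ∈ D, polar Q w₁ d₁ = 1 ∧ polar Q w₁ d₂ = 0 ∧ polar Q w₂ d₁ = 0 ∧ polar Q w₂ d₂ = 1 := by
  let f : D →ₗ[F] F × F := ((polarBilin Q d₁).comp D.subtype).prod ((polarBilin Q d₂).comp D.subtype)
  have hf : ∀ d : D, f d = (polar Q d₁ d, polar Q d₂ d) := fun d => rfl
  have hinj : Function.Injective f := by
    rw [← LinearMap.ker_eq_bot, LinearMap.ker_eq_bot']
    intro d hd
    rw [hf, Prod.mk_eq_zero] at hd
    apply Subtype.ext
    refine hND d d.2 fun y hy => ?_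
    obtain ⟨c₁, c₂, rfl⟩ := hsp y hy
    rw [polar_add_right, polar_smul_right, polar_smul_right, polar_comm Q (d : V) d₁, polar_comm Q (d : V) d₂, hd.1,
      hd.2, smul_zero, smul_zero, add_zero]
  have hsurj := (LinearMap.injective_iff_surjective_of_finrank_eq_finrank (by
    rw [hD, finrank_prod, finrank_self])).1 hinj
  obtain ⟨w₁, h1⟩ := hsurj (1, 0)
  obtain ⟨w₂, h2⟩ := hsurj (0, 1)
  rw [hf, Prod.mk.injEq] at h1 h2
  exact ⟨w₁, w₁.2, w₂, w₂.2, by rw [polar_comm, h1.1], by rw [polar_comm, h1.2], by rw [polar_comm, h2.1],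
    by rw [polar_comm, h2.2]⟩

/-- moving a basis of `D` by `M` -/
theorem exists_pair {D M : Submodule F V} (hD : finrank F D = 2)
    (hND : ∀ x ∈ D, (∀ y ∈ D, polar Q x y = 0) → x = 0) {d₁ d₂ : V} (hd₁ : d₁ ∈ D) (hd₂ : d₂ ∈ D)
    (hsp : ∀ d ∈ D, ∃ c₁ c₂ : F, d = c₁ • d₁ + c₂ • d₂) (hMD : M ≤ perp Q D) (hMt : ∀ m ∈ M, Q m = 0) {m₁ m₂ : V}
    (hm₁ : m₁ ∈ M) (hm₂ : m₂ ∈ M) :
    ∃ u ∈ RM Q M, (u : V ≃ₗ[F] V) d₁ = d₁ + m₁ ∧ (u : V ≃ₗ[F] V) d₂ = d₂ + m₂ := by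
  obtain ⟨w₁, hw₁, w₂, hw₂, h1, h2, h3, h4⟩ := exists_dual hD hND hsp
  have hDM : D ≤ perp Q M := fun d hd m hm => by
    rw [polar_comm]
    exact hMD hm d hd
  obtain ⟨u₁, hu₁, h5⟩ := siegel_mem_RM hMt hm₁ ((perp Q M).neg_mem (hDM hw₁))
  obtain ⟨u₂, hu₂, h6⟩ := siegel_mem_RM hMt hm₂ ((perp Q M).neg_mem (hDM hw₂))
  refine ⟨u₁ * u₂, (RM Q M).mul_mem hu₁ hu₂, ?_, ?_⟩
  · show (u₁ : V ≃ₗ[F] V) ((u₂ : V ≃ₗ[F] V) d₁) = _
    rw [h6 d₁ (hDM hd₁), polar_neg_left, h3, neg_zero, zero_smul, sub_zero, h5 d₁ (hDM hd₁), polar_neg_left, h1]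
    module
  · show (u₁ : V ≃ₗ[F] V) ((u₂ : V ≃ₗ[F] V) d₂) = _
    rw [h6 d₂ (hDM hd₂), polar_neg_left, h4, map_sub, map_smul, hu₁.1 m₂ hm₂, h5 d₂ (hDM hd₂), polar_neg_left, h2]
    module

/-- **The vector trick**: an isometry of order prime to `p` commuting with enough elements is scalar. -/
theorem scalar_of_pairs (hQn : Nondeg Q) {n : ℕ} (hn : 1 ≤ n) (hV : finrank F V = 2 * (n + 1)) {D M : Submodule F V}
    (hD : finrank F D = 2) (hani : ∀ d ∈ D, Q d = 0 → d = 0) (hMD : M ≤ perp Q D) (hMt : ∀ m ∈ M, Q m = 0)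
    (hM : finrank F M = n) {a : V ≃ₗ[F] V} (haO : a ∈ O Q)
    (hss : Module.End.IsSemisimple (a.toLinearMap : Module.End F V)) {d₁ d₂ : V} (hd₁ : d₁ ∈ D) (hd₂ : d₂ ∈ D)
    (hli : LinearIndependent F ![d₁, d₂]) (hsp : ∀ d ∈ D, ∃ c₁ c₂ : F, d = c₁ • d₁ + c₂ • d₂)
    (H : ∀ m₁ ∈ M, ∀ m₂ ∈ M, ∃ x ∈ O Q, (∀ v, x (a v) = a (x v)) ∧ x d₁ = d₁ + m₁ ∧ x d₂ = d₂ + m₂) :
    ∃ l : F, l * l = 1 ∧ ∀ v, a v = l • v := by
  have hps := perp_sup hQn hV hD hani hMD hMt hM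
  have hpM : perp Q M = M ⊔ D := by rw [← hps, perp_perp hQn, hps]
  have hDM : D ≤ perp Q M := by
    rw [hpM]
    exact le_sup_right
  have hcm : ∀ {x : V ≃ₗ[F] V} (_ : x ∈ O Q) (_ : ∀ v, x (a v) = a (x v)) (u v : V),
      polar Q (a (x u)) (x v) = polar Q (a u) v := by
    intro x hx hxa u v
    rw [← hxa]
    exact polar_map hx _ _
  -- `a M ⊥ D`
  have e1 : ∀ m ∈ M, polar Q (a m) d₁ = 0 := by
    intro m hm
    obtain ⟨x, hx, hxa, h1, h2⟩ := H 0 M.zero_mem m hm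
    have h3 := hcm hx hxa d₂ d₁
    rw [h1, h2, add_zero, map_add, polar_add_left] at h3
    linear_combination h3
  have e2 : ∀ m ∈ M, polar Q (a m) d₂ = 0 := by
    intro m hm
    obtain ⟨x, hx, hxa, h1, h2⟩ := H m hm 0 M.zero_mem
    have h3 := hcm hx hxa d₁ d₂
    rw [h1, h2, add_zero, map_add, polar_add_left] at h3
    linear_combination h3
  have e3 : ∀ m ∈ M, polar Q (a d₁) m = 0 := by
    intro m hm
    obtain ⟨x, hx, hxa, h1, h2⟩ := H 0 M.zero_mem m hm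
    have h3 := hcm hx hxa d₁ d₂
    rw [h1, h2, add_zero, polar_add_right] at h3
    linear_combination h3
  have e4 : ∀ m ∈ M, ∀ m' ∈ M, polar Q (a m) m' = 0 := by
    intro m hm m' hm'
    obtain ⟨x, hx, hxa, h1, h2⟩ := H m hm m' hm'
    have h3 := hcm hx hxa d₁ d₂
    rw [h1, h2, map_add, polar_add_left, polar_add_right, polar_add_right, e3 m' hm', e2 m hm] at h3
    linear_combination h3
  have haM : ∀ m ∈ M, a m ∈ M := by
    intro m hm
    rw [← hps]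
    intro y hy
    obtain ⟨m', hm', d, hd, rfl⟩ := Submodule.mem_sup.1 hy
    obtain ⟨c₁, c₂, rfl⟩ := hsp d hd
    rw [polar_comm, polar_add_right, polar_add_right, polar_smul_right, polar_smul_right, e4 m hm m' hm', e1 m hm,
      e2 m hm, smul_zero, smul_zero, add_zero, add_zero]
  have haM' : ∀ m ∈ M, ∃ m' ∈ M, a m' = m := by
    have h1 : M.map a.toLinearMap = M := by
      apply Submodule.eq_of_le_of_finrank_eq
      · rintro _ ⟨m, hm, rfl⟩
        exact haM m hm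
      · exact LinearEquiv.finrank_map_eq a M
    intro m hm
    rw [← h1] at hm
    exact hm
  have haP : ∀ v ∈ perp Q M, a v ∈ perp Q M := by
    intro v hv m hm
    obtain ⟨m', hm', rfl⟩ := haM' m hm
    rw [polar_map haO]
    exact hv m' hm'
  -- the stable complement
  obtain ⟨D', hD'1, hD'2, hD'3⟩ := exists_compl hss (M := M) (W := perp Q M)
    (fun x hx y hy => polar_of_ts hMt hy hx) haM haP
  have hD'f : finrank F D' = 2 := by
    have h1 := Submodule.finrank_sup_add_finrank_inf_eq M D'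
    have h2 := finrank_add_perp hQn M
    rw [hD'2, hD'3, finrank_bot] at h1
    omega
  have haD : ∀ d ∈ D, a d ∈ D := by
    obtain ⟨m₁, hm₁, d₁', hd₁', h1⟩ := Submodule.mem_sup.1 (show d₁ ∈ M ⊔ D' by rw [hD'3]; exact hDM hd₁)
    obtain ⟨m₂, hm₂, d₂', hd₂', h2⟩ := Submodule.mem_sup.1 (show d₂ ∈ M ⊔ D' by rw [hD'3]; exact hDM hd₂)
    obtain ⟨x, hx, hxa, h3, h4⟩ := H (-m₁) (M.neg_mem hm₁) (-m₂) (M.neg_mem hm₂)
    have h5 : x d₁ = d₁' := by
      rw [h3, ← h1]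
      abel
    have h6 : x d₂ = d₂' := by
      rw [h4, ← h2]
      abel
    have h7 : D.map x.toLinearMap = D' := by
      apply Submodule.eq_of_le_of_finrank_eq
      · rintro _ ⟨d, hd, rfl⟩
        obtain ⟨c₁, c₂, rfl⟩ := hsp d hd
        show x (c₁ • d₁ + c₂ • d₂) ∈ D'
        rw [map_add, map_smul, map_smul, h5, h6]
        exact D'.add_mem (D'.smul_mem _ hd₁') (D'.smul_mem _ hd₂')
      · rw [hD'f, ← hD]
        exact LinearEquiv.finrank_map_eq x D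
    intro d hd
    have h8 : x d ∈ D' := by
      rw [← h7]
      exact ⟨d, hd, rfl⟩
    have h9 := hD'1 _ h8
    rw [← h7] at h9
    obtain ⟨d', hd', h10⟩ := h9
    have h11 : x d' = x (a d) := by
      rw [hxa]
      exact h10
    rw [← x.injective h11]
    exact hd'
  obtain ⟨α, β, h1⟩ := hsp _ (haD d₁ hd₁)
  obtain ⟨γ, δ, h2⟩ := hsp _ (haD d₂ hd₂)
  have e5 : ∀ m₁ ∈ M, ∀ m₂ ∈ M, a m₁ = α • m₁ + β • m₂ ∧ a m₂ = γ • m₁ + δ • m₂ := by
    intro m₁ hm₁ m₂ hm₂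
    obtain ⟨x, hx, hxa, h3, h4⟩ := H m₁ hm₁ m₂ hm₂
    have h5 := hxa d₁
    have h6 := hxa d₂
    rw [h1, map_add, map_smul, map_smul, h3, h4, map_add, h1] at h5
    rw [h2, map_add, map_smul, map_smul, h3, h4, map_add, h2] at h6
    refine ⟨?_, ?_⟩
    · have e : a m₁ = (α • d₁ + β • d₂ + a m₁) - (α • d₁ + β • d₂) := by abel
      rw [e, ← h5]
      module
    · have e : a m₂ = (γ • d₁ + δ • d₂ + a m₂) - (γ • d₁ + δ • d₂) := by abel
      rw [e, ← h6]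
      module
  obtain ⟨m, hm, hm0⟩ := Cfsg.Agent.H955.exists_ne_zero_of_finrank_pos (U := M) (by omega)
  have hβ : β = 0 := by
    have h3 := (e5 0 M.zero_mem m hm).1
    rw [map_zero, smul_zero, zero_add] at h3
    exact (smul_eq_zero.1 h3.symm).resolve_right hm0
  have hγ : γ = 0 := by
    have h3 := (e5 m hm 0 M.zero_mem).2
    rw [map_zero, smul_zero, add_zero] at h3
    exact (smul_eq_zero.1 h3.symm).resolve_right hm0
  have hαδ : δ = α := by
    have h3 := e5 m hm m hm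
    rw [hβ, hγ, zero_smul, add_zero, zero_add] at h3
    exact smul_left_injective F hm0 (h3.2.symm.trans h3.1)
  have haM2 : ∀ m ∈ M, a m = α • m := by
    intro m hm
    have h3 := (e5 m hm m hm).1
    rwa [hβ, zero_smul, add_zero] at h3
  have haD2 : ∀ d ∈ D, a d = α • d := by
    intro d hd
    obtain ⟨c₁, c₂, rfl⟩ := hsp d hd
    rw [map_add, map_smul, map_smul, h1, h2, hβ, hγ, hαδ]
    module
  have hd10 : d₁ ≠ 0 := hli.ne_zero 0
  have hα : α * α = 1 := by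
    have h3 := haO d₁
    rw [haD2 d₁ hd₁, QuadraticMap.map_smul, smul_eq_mul] at h3
    have h4 : (α * α - 1) * Q d₁ = 0 := by linear_combination h3
    exact sub_eq_zero.1 ((mul_eq_zero.1 h4).resolve_right fun h => hd10 (hani d₁ hd₁ h))
  refine ⟨α, hα, fun v => ?_⟩
  have h3 : a v - α • v ∈ M := by
    rw [← hps]
    intro y hy
    obtain ⟨m', hm', d, hd, rfl⟩ := Submodule.mem_sup.1 hy
    rw [polar_add_left, polar_range haO hα (haM2 m' hm'), polar_range haO hα (haD2 d hd), add_zero]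
  exact sub_eq_zero.1 (ker_im hss (mem_im.2 ⟨v, rfl⟩) (haM2 _ h3))

/-- parity on the complement of a plane fixed pointwise -/
theorem parity_compl {p : ℕ} [Fact p.Prime] [CharP F p] (hQn : Nondeg Q) {B : Subgroup ↥(E Q)} {U D : Submodule F V}
    (h1 : U ⊓ D = ⊥) (h2 : U ⊔ D = ⊤) (hU : ∀ g, ∀ u ∈ U, rp B g u ∈ U) (hD : ∀ s ∈ D, ∀ g, rp B g s = s) (g : B) :
    Even (pf (resRep (rp B) U hU g) + finrank F U) := by
  set K := LinearMap.ker (rp B g - 1) with hK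
  have hDK : D ≤ K := fun d hd => mem_ker_sub_one.2 (hD d hd g)
  have h3 : (LinearMap.ker (resRep (rp B) U hU g - 1)).map U.subtype = U ⊓ K := by
    ext v
    constructor
    · rintro ⟨u, hu, rfl⟩
      exact ⟨u.2, mem_ker_sub_one.2 (congrArg Subtype.val (mem_ker_sub_one.1 hu))⟩
    · rintro ⟨hv1, hv2⟩
      exact ⟨⟨v, hv1⟩, mem_ker_sub_one.2 (Subtype.ext (mem_ker_sub_one.1 hv2)), rfl⟩
  have h4 : pf (resRep (rp B) U hU g) = finrank F ↥(U ⊓ K) := by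
    rw [← h3, (Submodule.equivMapOfInjective _ (Submodule.subtype_injective _) _).finrank_eq.symm]
    rfl
  have h5 : D ⊔ (U ⊓ K) = K := by
    rw [← sup_inf_assoc_of_le _ hDK, sup_comm, h2, top_inf_eq]
  have h6 := Submodule.finrank_sup_add_finrank_inf_eq D (U ⊓ K)
  have h7 : D ⊓ (U ⊓ K) = ⊥ := by
    rw [← inf_assoc, inf_comm D U, h1, bot_inf_eq]
  have h8 := Submodule.finrank_sup_add_finrank_inf_eq U D
  have h9 := Cfsg.Agent.H890.SpParity.even_E hQn g.1.2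
  have h10 : finrank F (Cfsg.Agent.H890.SpParity.fix ((g : ↥(E Q)) : V ≃ₗ[F] V)) = finrank F K := rfl
  rw [h5, h7, finrank_bot] at h6
  rw [h1, h2, finrank_bot, finrank_top] at h8
  rw [h10] at h9
  rw [h4]
  rw [Nat.even_iff] at h9 ⊢
  omega

/-- **No special elements.** -/
theorem hspec {p : ℕ} [Fact p.Prime] [CharP F p] (hQn : Nondeg Q) {n : ℕ} (hn : 3 ≤ n)
    (hV : finrank F V = 2 * (n + 1)) (hmin : ¬ Cfsg.Agent.H955.IsPlus Q) {G : Type*} [Group G] [Finite G]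
    {π : ↥(E Q) →* G} (hS : FixBN.HasSplit p G) (hs : Function.Surjective π)
    (hc : π.ker ≤ Subgroup.center ↥(E Q)) (hk : ¬ p ∣ Nat.card π.ker) (a b : ↥(E Q)) (c : G)
    (h : Cfsg.Agent.H330.ClassProd.AllConj (π a) (π b) c) (ha : ¬ p ∣ orderOf a) (hb : ¬ p ∣ orderOf b)
    (hns : ∀ l : F, l * l = 1 → ∃ v, (a : V ≃ₗ[F] V) v ≠ l • v) (hSp : Spec Q (b : V ≃ₗ[F] V)) : False := by
  have hp : p.Prime := Fact.out
  have hfV : Finite V := Module.finite_of_finite F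
  have hfE : Finite (V ≃ₗ[F] V) := Finite.of_injective (fun g : V ≃ₗ[F] V => (g : V → V)) DFunLike.coe_injective
  have hnt : Nontrivial V := nontrivial_of_finrank_pos (R := F) (by omega)
  obtain ⟨e, he, hD, hani⟩ := hSp
  have hbss := semi_of_regular hb
  have hbO := E_le_O b.2
  obtain ⟨B, hB1, hB2⟩ := Cfsg.Agent.H330.ClassSub.exists_isSyl (p := p) b
  have hcomm : ∀ (g : B) v, rp B g ((b : V ≃ₗ[F] V) v) = (b : V ≃ₗ[F] V) (rp B g v) := fun g v => by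
    have h1 := Subgroup.mem_centralizer_singleton_iff.1 (hB1.le g.2)
    exact LinearEquiv.congr_fun (congrArg Subtype.val h1) v
  have hBD : ∀ s ∈ im (b : V ≃ₗ[F] V) e, ∀ g, rp B g s = s :=
    fix_plane hB2 (rp_Q B) hQn hbO hbss hcomm he hD (fun s hs _ => hani s hs)
  obtain ⟨hUD, hUD'⟩ := ker_im_top hbss e
  set U := LinearMap.ker ((b : V ≃ₗ[F] V).toLinearMap - e • (LinearMap.id : V →ₗ[F] V)) with hU
  set D := im (b : V ≃ₗ[F] V) e with hDdef
  have hperp : ∀ u ∈ U, ∀ d ∈ D, polar Q u d = 0 := by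
    intro u hu d hd
    obtain ⟨w, rfl⟩ := mem_im.1 hd
    exact polar_range hbO he (mem_ker_sub.1 hu)
  have hUs : ∀ g, ∀ u ∈ U, rp B g u ∈ U := by
    intro g u hu
    rw [hU, mem_ker_sub] at hu ⊢
    rw [← hcomm, hu, map_smul]
  have hsum := Submodule.finrank_sup_add_finrank_inf_eq U D
  rw [hUD, hUD', finrank_bot, finrank_top] at hsum
  have hUp : U ≤ perp Q D := fun u hu d hd => by
    rw [polar_comm]
    exact hperp u hu d hd
  have hUp' : perp Q D = U := by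
    symm
    apply Submodule.eq_of_le_of_finrank_eq hUp
    have := finrank_add_perp hQn D
    omega
  obtain ⟨S, hSU, hS1, hS2, hS3, hS4⟩ := flag_sub p hB2 (rp_Q B) hQn hUD' hperp hUs (k := n - 1) (d := 2) (by omega)
    le_rfl (by omega) (Or.inr (parity_compl (p := p) hQn hUD hUD' hUs hBD))
  obtain ⟨M, hSM, hMD, hMt, hM⟩ := exists_ext_ts hQn hV hD hani hmin (hSU.trans hUp) hS2 (by omega)
  have hBM : ∀ y ∈ B, ∀ m ∈ M, (y : V ≃ₗ[F] V) m ∈ M := by
    intro y hy m hm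
    have h1 := hS4 ⟨y, hy⟩ m (by rw [← hUp']; exact hMD hm) (fun s hs => polar_of_ts hMt (hSM hs) hm)
    have h2 : (y : V ≃ₗ[F] V) m = (rp B ⟨y, hy⟩ m - m) + m := by
      rw [sub_add_cancel]
      rfl
    rw [h2]
    exact M.add_mem (hSM h1) hm
  have hPG : IsPGroup p ↥(B ⊔ RM Q M) := hB2.to_sup_of_normal_right' (isPGroup_RM M) (le_normalizer_RM hBM)
  obtain ⟨P, hP⟩ := hPG.exists_le_sylow
  obtain ⟨g, A, hA1, hA2, hA3⟩ := Cfsg.Agent.H330.ClassSub.exists_factor_lift hS hs hc hk h ha hb P hB1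
    (le_sup_left.trans hP)
  have hND : ∀ x ∈ D, (∀ y ∈ D, polar Q x y = 0) → x = 0 := by
    intro x hx hxy
    have h1 := nondeg_sub hQn (by rw [sup_comm]; exact hUD') (fun u hu w hw => by
      rw [polar_comm]
      exact hperp w hw u hu) (U := D) (W := U)
    exact congrArg Subtype.val (h1 ⟨x, hx⟩ fun y => hxy y y.2)
  let bs : Basis (Fin 2) F D := finBasisOfFinrankEq F D hD
  have hli : LinearIndependent F ![(bs 0 : V), (bs 1 : V)] := by
    have h1 : LinearIndependent F (fun i => (bs i : V)) := bs.linearIndependent.map' D.subtype (Submodule.ker_subtype _)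
    have h2 : (fun i => (bs i : V)) = ![(bs 0 : V), (bs 1 : V)] := by
      funext i
      fin_cases i <;> rfl
    rwa [h2] at h1
  have hsp : ∀ d ∈ D, ∃ c₁ c₂ : F, d = c₁ • (bs 0 : V) + c₂ • (bs 1 : V) := by
    intro d hd
    refine ⟨bs.repr ⟨d, hd⟩ 0, bs.repr ⟨d, hd⟩ 1, ?_⟩
    have h1 := bs.sum_repr ⟨d, hd⟩
    rw [Fin.sum_univ_two] at h1
    exact (congrArg Subtype.val h1).symm
  have ha' : ¬ p ∣ orderOf (g * a * g⁻¹) := by
    rwa [Cfsg.Agent.H330.ClassProd.orderOf_of_isConj (isConj_iff.2 ⟨g, rfl⟩)]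
  obtain ⟨l, hl, hal⟩ := scalar_of_pairs hQn (by omega) hV hD hani hMD hMt hM (a := (g * a * g⁻¹ : ↥(E Q)))
    (E_le_O (g * a * g⁻¹ : ↥(E Q)).2) (semi_of_regular ha') (bs 0).2 (bs 1).2 hli hsp (fun m₁ hm₁ m₂ hm₂ => by
      obtain ⟨u, hu, h1, h2⟩ := exists_pair hD hND (bs 0).2 (bs 1).2 hsp hMD hMt hm₁ hm₂
      obtain ⟨x, hx, y, hy, rfl⟩ := hA3 u (hP (Subgroup.mem_sup_right hu))
      have h3 : ∀ d ∈ D, ((x * y : ↥(E Q)) : V ≃ₗ[F] V) d = (x : V ≃ₗ[F] V) d := by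
        intro d hd
        have h4 : (y : V ≃ₗ[F] V) d = d := hBD d hd ⟨y, hy⟩
        show (x : V ≃ₗ[F] V) ((y : V ≃ₗ[F] V) d) = _
        rw [h4]
      refine ⟨x, E_le_O x.2, fun v => LinearEquiv.congr_fun (congrArg Subtype.val (hA2 x hx)) v, ?_, ?_⟩
      · rw [← h3 _ (bs 0).2, h1]
      · rw [← h3 _ (bs 1).2, h2])
  obtain ⟨v, hv⟩ := hns l hl
  apply hv
  apply (g : V ≃ₗ[F] V).injective
  have h1 := hal ((g : V ≃ₗ[F] V) v)
  have h2 : ((g * a * g⁻¹ : ↥(E Q)) : V ≃ₗ[F] V) ((g : V ≃ₗ[F] V) v) = (g : V ≃ₗ[F] V) ((a : V ≃ₗ[F] V) v) := by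
    show (g : V ≃ₗ[F] V) ((a : V ≃ₗ[F] V) (((g⁻¹ : ↥(E Q)) : V ≃ₗ[F] V) ((g : V ≃ₗ[F] V) v))) = _
    have h3 : ((g⁻¹ : ↥(E Q)) : V ≃ₗ[F] V) ((g : V ≃ₗ[F] V) v) = v := LinearEquiv.symm_apply_apply (g : V ≃ₗ[F] V) v
    rw [h3]
  rw [← h2, h1, map_smul]

end

end Cfsg.Agent.H530.NA
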