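import Cfsg.Agent.H530.NA.MinFix
import Cfsg.Agent.H530.NA.MinSpec
import Cfsg.Agent.H530.NA.Fin

/-!
# S2451 (A): the row `POmega` of minus type (helper530)
-/

set_option autoImplicit false
set_option linter.unusedSectionVars false

namespace Cfsg.Agent.H530.NA

open Cfsg QuadraticMap Module Polynomial
open Cfsg.Agent.LieClassical.OrthCore Cfsg.Agent.LieClassical.OrthTrans
open Cfsg.Agent.LieClassical.OrthFinite Cfsg.Agent.LieClassical.QuadForms
open Cfsg.Agent.ClassicalGeometry.OrthSemi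

universe u w

section

variable {F : Type*} [Field F] [Finite F] {V : Type u} [AddCommGroup V] [Module F V] [FiniteDimensional F V]
  {Q : QuadraticForm F V}

/-- the pointwise stabiliser of a pair of vectors -/
def stab2 (Q : QuadraticForm F V) (u v : V) : Subgroup ↥(E Q) where
  carrier := {g | (g : V ≃ₗ[F] V) u = u ∧ (g : V ≃ₗ[F] V) v = v}
  one_mem' := ⟨rfl, rfl⟩
  mul_mem' := by
    rintro g h ⟨hg1, hg2⟩ ⟨hh1, hh2⟩
    refine ⟨?_, ?_⟩
    · show (g : V ≃ₗ[F] V) ((h : V ≃ₗ[F] V) u) = u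
      rw [hh1, hg1]
    · show (g : V ≃ₗ[F] V) ((h : V ≃ₗ[F] V) v) = v
      rw [hh2, hg2]
  inv_mem' := by
    rintro g ⟨hg1, hg2⟩
    exact ⟨(LinearEquiv.symm_apply_eq (g : V ≃ₗ[F] V)).2 hg1.symm, (LinearEquiv.symm_apply_eq (g : V ≃ₗ[F] V)).2 hg2.symm⟩

theorem mem_stab2 {u v : V} {g : ↥(E Q)} :
    g ∈ stab2 Q u v ↔ (g : V ≃ₗ[F] V) u = u ∧ (g : V ≃ₗ[F] V) v = v := Iff.rfl

/-- a `p`-element normalising `stab2` and not in it -/
theorem exists_norm2 (p : ℕ) [Fact p.Prime] [CharP F p] (hQn : Nondeg Q) {u v : V} (hu : Q u = 0)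
    (huv : polar Q u v = 0) (hli : LinearIndependent F ![u, v]) :
    ∃ g : ↥(E Q), g ∉ stab2 Q u v ∧ (∃ k : ℕ, g ^ p ^ k = 1) ∧ ∀ h ∈ stab2 Q u v, g * h * g⁻¹ ∈ stab2 Q u v := by
  have hu0 : u ≠ 0 := by
    have := hli.ne_zero 0
    exact this
  obtain ⟨w, huw, hwv⟩ : ∃ w, polar Q u w = 0 ∧ polar Q w v ≠ 0 := by
    by_contra hcon
    push Not at hcon
    have h1 : v ∈ Cfsg.Agent.H955.perp Q (Cfsg.Agent.H955.perp Q (Submodule.span F {u})) := by
      intro w hw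
      exact hcon w (hw u (Submodule.mem_span_singleton_self u))
    rw [Cfsg.Agent.H955.perp_perp hQn] at h1
    obtain ⟨c, hc⟩ := Submodule.mem_span_singleton.1 h1
    exact (LinearIndependent.pair_iff' hu0).1 hli c hc
  set g : ↥(E Q) := ⟨siegel Q u w hu huw, siegel_mem_E _ _⟩ with hg
  have hgv : ∀ v, (g : V ≃ₗ[F] V) v = v + polar Q u v • w - polar Q w v • u - (Q w * polar Q u v) • u := fun v => by
    show siegel Q u w hu huw v = _
    rw [siegel_apply]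
  have huu : polar Q u u = 0 := by rw [polar_self', hu, mul_zero]
  have hgu : (g : V ≃ₗ[F] V) u = u := by
    rw [hgv, huu, polar_comm Q w u, huw]
    simp
  have hgvv : (g : V ≃ₗ[F] V) v = v - polar Q w v • u := by
    rw [hgv, huv]
    simp
  refine ⟨g, ?_, ⟨1, ?_⟩, ?_⟩
  · rintro ⟨-, h2⟩
    rw [hgvv, sub_eq_self] at h2
    exact (smul_ne_zero hwv hu0) h2
  · rw [pow_one]
    apply Subtype.ext
    have hpw : (p • w : V) = 0 := by
      rw [← Nat.cast_smul_eq_nsmul F, CharP.cast_eq_zero, zero_smul]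
    have h1 : polar Q u (p • w) = 0 := by rw [hpw, polar_zero_right]
    show siegel Q u w hu huw ^ p = 1
    rw [siegel_pow hu huw p h1]
    refine LinearEquiv.ext fun v => ?_
    rw [siegel_apply, hpw]
    simp
  · rintro h ⟨h1, h2⟩
    have h3 : ((g⁻¹ : ↥(E Q)) : V ≃ₗ[F] V) u = u := (LinearEquiv.symm_apply_eq (g : V ≃ₗ[F] V)).2 hgu.symm
    have h4 : ((g⁻¹ : ↥(E Q)) : V ≃ₗ[F] V) v = v + polar Q w v • u := by
      refine (LinearEquiv.symm_apply_eq (g : V ≃ₗ[F] V)).2 ?_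
      rw [map_add, map_smul, hgu, hgvv, sub_add_cancel]
    refine ⟨?_, ?_⟩
    · show (g : V ≃ₗ[F] V) ((h : V ≃ₗ[F] V) (((g⁻¹ : ↥(E Q)) : V ≃ₗ[F] V) u)) = u
      rw [h3, h1, hgu]
    · show (g : V ≃ₗ[F] V) ((h : V ≃ₗ[F] V) (((g⁻¹ : ↥(E Q)) : V ≃ₗ[F] V) v)) = v
      rw [h4, map_add, map_smul, h1, h2, map_add, map_smul, hgu, hgvv, sub_add_cancel]

/-- **The minus row.** -/
theorem notA_minus {p : ℕ} [Fact p.Prime] [CharP F p] (hQn : Nondeg Q) {n : ℕ} (hn : 3 ≤ n)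
    (hV : finrank F V = 2 * (n + 1)) (hmin : ¬ Cfsg.Agent.H955.IsPlus Q) {G : Type*} [Group G] [Finite G]
    {π : ↥(E Q) →* G} (hS : FixBN.HasSplit p G) (hs : Function.Surjective π)
    (hc : π.ker = Subgroup.center ↥(E Q)) (hk : ¬ p ∣ Nat.card π.ker) : Cfsg.Agent.H27.AH.NotA p G := by
  have hp : p.Prime := Fact.out
  have hfV : Finite V := Module.finite_of_finite F
  have hfE : Finite (V ≃ₗ[F] V) := Finite.of_injective (fun g : V ≃ₗ[F] V => (g : V → V)) DFunLike.coe_injective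
  obtain ⟨v₁, -, v₂, -, hli, hv1, hv2, hv12⟩ := exists_ts_pair p (Q := Q) (U := ⊤) (by
    rw [finrank_top]
    omega)
  obtain ⟨g, hg, hgp, hgn⟩ := exists_norm2 p hQn hv1 hv12 hli
  have hns : ∀ a : ↥(E Q), π a ≠ 1 → ∀ l : F, l * l = 1 → ∃ v, (a : V ≃ₗ[F] V) v ≠ l • v := by
    intro a ha l _
    by_contra hcon
    push Not at hcon
    apply ha
    rw [← MonoidHom.mem_ker, hc, Subgroup.mem_center_iff]
    intro g
    apply Subtype.ext
    refine LinearEquiv.ext fun v => ?_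
    show (g : V ≃ₗ[F] V) ((a : V ≃ₗ[F] V) v) = (a : V ≃ₗ[F] V) ((g : V ≃ₗ[F] V) v)
    rw [hcon, hcon, map_smul]
  refine Cfsg.Agent.H330.ClassSub.notA_of_linear_spec hS hs hc.le hk hg hgp hgn
    (fun a => Spec Q (a : V ≃ₗ[F] V)) ?_ ?_
  · intro a ha hπa
    by_cases hSp : Spec Q (a : V ≃ₗ[F] V)
    · exact Or.inl hSp
    right
    intro X hX hXa
    obtain ⟨v, w, h1, h2, h3, h4, h5⟩ := (spec_or_twoFix hX (rp_Q X) hQn (by omega) (by
      rw [hV]
      exact even_two_mul _) a.2 (semi_of_regular ha) (fun x v => by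
        have := hXa x.1 x.2
        exact LinearEquiv.congr_fun (congrArg Subtype.val this) v) (hns a hπa)).resolve_left hSp
    obtain ⟨k, hk, hk1, hk2⟩ := Cfsg.Agent.H105.SzO.trans_pair hQn (by omega) h2 h3 h4 h1 hv1 hv2 hv12 hli
    refine ⟨⟨k, hk⟩, fun x hx => ?_⟩
    have h6 : (x : V ≃ₗ[F] V) v = v := (h5 ⟨x, hx⟩).1
    have h7 : (x : V ≃ₗ[F] V) w = w := (h5 ⟨x, hx⟩).2
    have h8 : k.symm v₁ = v := (LinearEquiv.symm_apply_eq k).2 hk1.symm
    have h9 : k.symm v₂ = w := (LinearEquiv.symm_apply_eq k).2 hk2.symm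
    refine ⟨?_, ?_⟩
    · show k ((x : V ≃ₗ[F] V) (k.symm v₁)) = v₁
      rw [h8, h6, hk1]
    · show k ((x : V ≃ₗ[F] V) (k.symm v₂)) = v₂
      rw [h9, h7, hk2]
  · intro a b c h ha hb hπa hπb hSp
    exact hspec hQn hn hV hmin hS hs hc.le hk a b (π c) h ha hb (hns a hπa) hSp

end

/-- **NotA for `PΩ⁻_{2m}(q)`.** -/
theorem notA_ominus {p : ℕ} [Fact p.Prime] {F : Type} [Field F] [Fintype F] [CharP F p] {m : ℕ} (hm : 4 ≤ m)
    (a b : F) (hab : ∀ z₁ z₂ : F, z₁ ^ 2 + a * z₁ * z₂ + b * z₂ ^ 2 = 0 → z₁ = 0 ∧ z₂ = 0) :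
    Cfsg.Agent.H27.AH.NotA p (POmega F (quadFormMinus (m - 1) F a b)) := by
  have hp : p.Prime := Fact.out
  have hQ : Nondeg (minusForm (m - 1) F a b) := Cfsg.Agent.H955.nondeg_minus (m - 1) hab
  have hd : finrank F ((Fin (m - 1) ⊕ Fin (m - 1)) ⊕ Fin 2 → F) = 2 * ((m - 1) + 1) :=
    Cfsg.Agent.H955.finrank_minus (m - 1)
  have hG : Good (minusForm (m - 1) F a b) := good_of_finite hQ (by omega)
  rw [← coe_minusForm]
  have hsi : IsSimpleGroup (POmega F ⇑(minusForm (m - 1) F a b)) := isSimpleGroup_POmega_of_good hG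
  have hfin : Finite (POmega F ⇑(minusForm (m - 1) F a b)) := inferInstance
  have hS : FixBN.HasSplit p (POmega F ⇑(minusForm (m - 1) F a b)) := by
    refine Cfsg.Agent.H330.Gow.hasSplit_of_ab (Cfsg.Agent.H716.SplitAb.hasSplitAb_of_lie hp ?_)
    refine Or.inr (Or.inr (Or.inr (Or.inr (Or.inr (Or.inl
      ⟨F, inferInstance, inferInstance, inferInstance, m, a, b, hm, hab, ?_⟩)))))
    rw [coe_minusForm]
    exact ⟨MulEquiv.refl _⟩
  exact notA_minus hQ (by omega) hd (Cfsg.Agent.H955.not_isPlus_minus (m - 1) hab) hS (prj_surjective hG) (ker_prj hG)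
    (not_dvd_ker hG)

end Cfsg.Agent.H530.NA
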