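import Cfsg.Agent.H530.NA.Base

/-!
# S2451 (A), orthogonal rows: semisimple isometries (helper530)
-/

set_option autoImplicit false
set_option linter.unusedSectionVars false

namespace Cfsg.Agent.H530.NA

open QuadraticMap Module Polynomial
open Cfsg.Agent.LieClassical.OrthCore Cfsg.Agent.LieClassical.OrthTrans

variable {F : Type*} [Field F] {V : Type*} [AddCommGroup V] [Module F V] [FiniteDimensional F V]
  {Q : QuadraticForm F V}

/-- an endomorphism of order prime to the characteristic is semisimple -/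
theorem isSemisimple {f : Module.End F V} {n : ℕ} (hn : (n : F) ≠ 0) (hf : f ^ n = 1) : f.IsSemisimple := by
  have h1 : (X ^ n - 1 : F[X]).Separable := by
    have := separable_X_pow_sub_C (1 : F) hn one_ne_zero
    rwa [map_one] at this
  refine Module.End.isSemisimple_of_squarefree_aeval_eq_zero h1.squarefree ?_
  rw [map_sub, map_pow, aeval_X, map_one, hf, sub_self]

/-- stable complements -/
theorem exists_compl {f : Module.End F V} (hf : f.IsSemisimple) {M W : Submodule F V} (hMW : M ≤ W)
    (hM : ∀ v ∈ M, f v ∈ M) (hW : ∀ v ∈ W, f v ∈ W) :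
    ∃ D : Submodule F V, (∀ v ∈ D, f v ∈ D) ∧ M ⊓ D = ⊥ ∧ M ⊔ D = W := by
  obtain ⟨L, hL, hc⟩ := (Module.End.isSemisimple_iff.1 hf) M hM
  refine ⟨L ⊓ W, fun v hv => ⟨hL hv.1, hW v hv.2⟩, ?_, ?_⟩
  · rw [← inf_assoc, hc.inf_eq_bot, bot_inf_eq]
  · rw [← sup_inf_assoc_of_le _ hMW, hc.sup_eq_top, top_inf_eq]

/-- kernel and image of a polynomial in a semisimple endomorphism are disjoint -/
theorem eq_zero_of_semi {f : Module.End F V} (hf : f.IsSemisimple) (g : F[X]) {v u : V}
    (h1 : v = aeval f g u) (h2 : aeval f g v = 0) : v = 0 := by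
  have hcomm : ∀ w, aeval f g (f w) = f (aeval f g w) := fun w => by
    have h3 : aeval f g * f = f * aeval f g := by
      have h4 := congrArg (aeval f) (mul_comm g X)
      rwa [map_mul, map_mul, aeval_X] at h4
    exact LinearMap.congr_fun h3 w
  obtain ⟨D, hD, hd1, hd2⟩ := exists_compl hf (M := LinearMap.ker (aeval f g)) (W := ⊤) le_top
    (fun v hv => by rw [LinearMap.mem_ker] at hv ⊢; rw [hcomm, hv, map_zero]) (fun v _ => Submodule.mem_top)
  have hu : u ∈ LinearMap.ker (aeval f g) ⊔ D := by rw [hd2]; exact Submodule.mem_top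
  obtain ⟨k, hk, l, hl, rfl⟩ := Submodule.mem_sup.1 hu
  have hgD : ∀ g : F[X], ∀ l ∈ D, aeval f g l ∈ D := by
    intro g l hl
    induction g using Polynomial.induction_on' with
    | add p q hp hq => rw [map_add, LinearMap.add_apply]; exact D.add_mem hp hq
    | monomial n a =>
      rw [aeval_monomial]
      have : ∀ m, (f ^ m) l ∈ D := by
        intro m
        induction m with
        | zero => rw [pow_zero]; exact hl
        | succ m ih => rw [pow_succ']; exact hD _ ih
      exact D.smul_mem a (this n)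
  rw [map_add, LinearMap.mem_ker.1 hk, zero_add] at h1
  have h3 : v ∈ LinearMap.ker (aeval f g) ⊓ D := ⟨h2, by rw [h1]; exact hgD g l hl⟩
  rw [hd1] at h3
  exact (Submodule.mem_bot F).1 h3

/-- kernel and image are complements -/
theorem ker_sup_range {f : Module.End F V} (hf : f.IsSemisimple) (g : F[X]) :
    LinearMap.ker (aeval f g) ⊓ LinearMap.range (aeval f g) = ⊥ ∧
      LinearMap.ker (aeval f g) ⊔ LinearMap.range (aeval f g) = ⊤ := by
  have h1 : LinearMap.ker (aeval f g) ⊓ LinearMap.range (aeval f g) = ⊥ := by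
    rw [eq_bot_iff]
    rintro v ⟨hv, u, hu⟩
    exact (Submodule.mem_bot F).2 (eq_zero_of_semi hf g hu.symm hv)
  refine ⟨h1, ?_⟩
  apply Submodule.eq_top_of_finrank_eq
  have h2 := Submodule.finrank_sup_add_finrank_inf_eq (LinearMap.ker (aeval f g)) (LinearMap.range (aeval f g))
  rw [h1, finrank_bot, add_zero] at h2
  rw [h2, add_comm, LinearMap.finrank_range_add_finrank_ker]

/-- the restriction of a nondegenerate form to an orthogonal summand -/
theorem nondeg_sub {U W : Submodule F V} (hQ : Nondeg Q) (h : U ⊔ W = ⊤)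
    (hUW : ∀ u ∈ U, ∀ w ∈ W, polar Q u w = 0) : Nondeg (Q.comp U.subtype) := by
  intro x hx
  apply Subtype.ext
  apply hQ
  intro v
  have hv : v ∈ U ⊔ W := by rw [h]; exact Submodule.mem_top
  obtain ⟨u, hu, w, hw, rfl⟩ := Submodule.mem_sup.1 hv
  rw [polar_add_right, hUW x.1 x.2 w hw, add_zero]
  exact hx ⟨u, hu⟩

/-- eigenvectors and the image of `a - e` are orthogonal -/
theorem polar_range {a : V ≃ₗ[F] V} (ha : a ∈ O Q) {e : F} (he : e * e = 1) {v u : V} (hv : a v = e • v) :
    polar Q v (a u - e • u) = 0 := by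
  have h1 : polar Q (a v) (a u) = polar Q v u := polar_map ha v u
  rw [hv, polar_smul_left, smul_eq_mul] at h1
  rw [polar_sub_right, polar_smul_right, smul_eq_mul]
  linear_combination e * h1 - polar Q v (a u) * he

end Cfsg.Agent.H530.NA
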