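import Cfsg.Agent.H530.NA.Odd
import Cfsg.Agent.H955.QMinus

/-!
# S2451 (A): the row `POmega` of minus type, definitions (helper530)

* `TwoFix Q ρ` : `ρ` fixes two independent orthogonal singular vectors;
* `Spec Q a` : `range (a - e)` is an anisotropic plane for some `e = ± 1`.
-/

set_option autoImplicit false
set_option linter.unusedSectionVars false

namespace Cfsg.Agent.H530.NA

open QuadraticMap Module Polynomial
open Cfsg.Agent.LieClassical.OrthCore Cfsg.Agent.LieClassical.OrthTrans

universe u w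

section

variable {F : Type*} [Field F] {V : Type u} [AddCommGroup V] [Module F V] {X : Type w} [Group X]

/-- two independent orthogonal singular fixed vectors -/
def TwoFix (Q : QuadraticForm F V) (ρ : X →* Module.End F V) : Prop :=
  ∃ v w : V, LinearIndependent F ![v, w] ∧ Q v = 0 ∧ Q w = 0 ∧ polar Q v w = 0 ∧ ∀ g, ρ g v = v ∧ ρ g w = w

/-- the image of `a - e` -/
noncomputable def im (a : V ≃ₗ[F] V) (e : F) : Submodule F V :=
  LinearMap.range (a.toLinearMap - e • (LinearMap.id : V →ₗ[F] V))

theorem mem_im {a : V ≃ₗ[F] V} {e : F} {v : V} : v ∈ im a e ↔ ∃ u, v = a u - e • u := by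
  constructor
  · rintro ⟨u, hu⟩
    exact ⟨u, hu.symm⟩
  · rintro ⟨u, hu⟩
    exact ⟨u, hu.symm⟩

/-- special elements: `range (a - e)` is an anisotropic plane, `e = ± 1` -/
def Spec (Q : QuadraticForm F V) (a : V ≃ₗ[F] V) : Prop :=
  ∃ e : F, e * e = 1 ∧ finrank F (im a e) = 2 ∧ ∀ v ∈ im a e, Q v = 0 → v = 0

end

end Cfsg.Agent.H530.NA
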